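import Mathlib
import Cfsg.Agent.Perm.PermModule

/-! Derived length of finite linear `p`-groups. -/

set_option autoImplicit false

namespace Cfsg.Agent.LinP

open Subgroup Module Polynomial
open scoped commutatorElement

universe u v

theorem derived_succ_le_map {G : Type*} [Group G] {H : Subgroup G} (h : commutator G ≤ H)
    (k : ℕ) : derivedSeries G (k + 1) ≤ (derivedSeries H k).map H.subtype := by
  induction k with
  | zero => rwa [derivedSeries_zero, ← MonoidHom.range_eq_map, range_subtype]
  | succ k ih =>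
    rw [derivedSeries_succ, derivedSeries_succ H, map_commutator]
    exact commutator_mono ih ih

theorem map_derived_le_succ {G : Type*} [Group G] {H : Subgroup G} (h : H ≤ commutator G)
    (k : ℕ) : (derivedSeries H k).map H.subtype ≤ derivedSeries G (k + 1) := by
  induction k with
  | zero => rwa [derivedSeries_zero, ← MonoidHom.range_eq_map, range_subtype]
  | succ k ih =>
    rw [derivedSeries_succ G, derivedSeries_succ H, map_commutator]
    exact commutator_mono ih ih

theorem sum_rootMultiplicity_le {F : Type*} [Field F] (f : F[X]) (T : Finset F) :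
    ∑ μ ∈ T, f.rootMultiplicity μ ≤ f.natDegree := by
  classical
  simp only [← count_roots]
  refine le_trans (Finset.sum_le_sum_of_subset (Finset.subset_union_left (s₂ := f.roots.toFinset)))
    ?_
  rw [Multiset.sum_count_eq_card fun a ha => by simp [ha]]
  exact card_roots' f

variable {F : Type*} [Field F] {p : ℕ}

theorem iSup_eigenspace [IsAlgClosed F] {V : Type*} [AddCommGroup V] [Module F V]
    [FiniteDimensional F V] {f : End F V} {n : ℕ} (hn : (n : F) ≠ 0) (h : f ^ n = 1) :
    ⨆ μ, f.eigenspace μ = ⊤ :=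
  (End.isSemisimple_of_squarefree_aeval_eq_zero
    ((X_pow_sub_one_separable_iff.2 hn).squarefree) (by simp [h])).iSup_eigenspace_eq_top

theorem eq_one_of_eigenspace {V : Type*} [AddCommGroup V] [Module F V] {f g : End F V}
    (h : ⨆ μ, f.eigenspace μ = ⊤) (hg : ∀ μ, ∀ v ∈ f.eigenspace μ, g v = v) : g = 1 := by
  ext v
  have hv : v ∈ ⨆ μ, f.eigenspace μ := h ▸ Submodule.mem_top
  induction hv using Submodule.iSup_induction' with
  | mem μ v hv => exact hg μ v hv
  | zero => simp
  | add a b _ _ ha hb => rw [map_add, ha, hb, map_add]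

theorem eig_le_comap {G V : Type*} [Group G] [AddCommGroup V] [Module F V]
    (ρ : Representation F G V) {f : End F V} (h : ∀ g, f * ρ g = ρ g * f) (μ : F) (g : G) :
    f.eigenspace μ ≤ (f.eigenspace μ).comap (ρ g) := fun v hv => by
  rw [Submodule.mem_comap, End.mem_eigenspace_iff] at *
  rw [← End.mul_apply, h, End.mul_apply, hv, map_smul]

theorem pow_card_rep {G V : Type*} [Group G] [AddCommGroup V] [Module F V]
    (ρ : Representation F G V) (g : G) : ρ g ^ Nat.card G = 1 := by
  rw [← map_pow, pow_card_eq_one', map_one]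

theorem card_ne_zero [Fact p.Prime] (hp : (p : F) ≠ 0) {G : Type*} [Group G] [Finite G]
    (hG : IsPGroup p G) : (Nat.card G : F) ≠ 0 := by
  obtain ⟨m, hm⟩ := IsPGroup.iff_card.1 hG
  rw [hm, Nat.cast_pow]
  exact pow_ne_zero _ hp

theorem exists_second_center [Fact p.Prime] {G : Type*} [Group G] [Finite G] (hG : IsPGroup p G)
    (h : center G ≠ ⊤) : ∃ x, x ∉ center G ∧ ∀ g, g⁻¹ * x * g * x⁻¹ ∈ center G := by
  have : Nontrivial (G ⧸ center G) := QuotientGroup.nontrivial_iff.2 h
  have := (hG.to_quotient (center G)).center_nontrivial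
  obtain ⟨⟨y, hy⟩, h1⟩ := exists_ne (1 : center (G ⧸ center G))
  obtain ⟨x, rfl⟩ := QuotientGroup.mk_surjective y
  refine ⟨x, fun hx => h1 (Subtype.ext ((QuotientGroup.eq_one_iff x).2 hx)), fun g => ?_⟩
  rw [← QuotientGroup.eq_one_iff]
  simp only [QuotientGroup.mk_mul, QuotientGroup.mk_inv]
  rw [mul_assoc _ (x : G ⧸ center G), ← mem_center_iff.1 hy g]
  group

theorem derived_le_ker [IsAlgClosed F] [hpp : Fact p.Prime] (hp : (p : F) ≠ 0) (k : ℕ) :
    ∀ (n : ℕ) (G : Type u) [Group G] [Finite G] (_ : IsPGroup p G) (V : Type v) [AddCommGroup V]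
      [Module F V] [FiniteDimensional F V] (ρ : Representation F G V), finrank F V = n →
      n < p ^ k → ∀ g ∈ derivedSeries G k, ρ g = 1 := by
  induction k with
  | zero =>
    intro n G _ _ _ V _ _ _ ρ hn h g _
    have : Subsingleton V := (finrank_zero_iff (R := F)).1 (by rw [pow_zero] at h; omega)
    exact Subsingleton.elim _ _
  | succ k ihk =>
  intro n
  induction n using Nat.strong_induction_on with
  | _ n ihn =>
  suffices key : ∀ (G : Type u) [Group G] [Finite G] (_ : IsPGroup p G) (V : Type v)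
      [AddCommGroup V] [Module F V] [FiniteDimensional F V] (ρ : Representation F G V),
      Function.Injective ρ → finrank F V = n → n < p ^ (k + 1) →
      ∀ g ∈ derivedSeries G (k + 1), ρ g = 1 by
    intro G _ _ hG V _ _ _ ρ hn h g hg
    let σ : G →* (End F V)ˣ := MonoidHom.toHomUnits ρ
    exact key (G ⧸ σ.ker) (hG.to_quotient _) V
      ((Units.coeHom _).comp (QuotientGroup.kerLift σ))
      (Units.coeHom_injective.comp (QuotientGroup.kerLift_injective σ)) hn h g
      (map_derivedSeries_le_derivedSeries (QuotientGroup.mk' σ.ker) _ ⟨g, hg, rfl⟩)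
  intro G _ _ hG V _ _ _ ρ hρ hn h g hg
  have hc := card_ne_zero hp hG
  by_cases h1 : ∃ z ∈ center G, ∀ μ, End.eigenspace (ρ z) μ ≠ ⊤
  · obtain ⟨z, hz, h1⟩ := h1
    have h2 : ∀ g, ρ z * ρ g = ρ g * ρ z := fun g => by
      rw [← map_mul, ← map_mul, mem_center_iff.1 hz]
    refine eq_one_of_eigenspace (iSup_eigenspace hc (pow_card_rep ρ z)) fun μ v hv => ?_
    have h3 := Submodule.finrank_lt (h1 μ)
    have := ihn _ (hn ▸ h3) G hG _ (ρ.subrepresentation _ (eig_le_comap ρ h2 μ)) rfl
      (by omega) g hg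
    exact congrArg Subtype.val (LinearMap.congr_fun this ⟨v, hv⟩)
  push Not at h1
  by_cases h2 : center G = ⊤
  · have h3 : commutator G = ⊥ := by
      rw [_root_.commutator, commutator_eq_bot_iff_le_centralizer]
      exact fun a _ b _ => mem_center_iff.1 (h2 ▸ mem_top a) b
    have := derivedSeries_antitone G (Nat.le_add_left 1 k) hg
    rw [derivedSeries_one, h3, mem_bot] at this
    rw [this, map_one]
  obtain ⟨x, hx, hx'⟩ := exists_second_center hG h2
  obtain ⟨g₀, hg₀⟩ : ∃ g₀, g₀⁻¹ * x * g₀ * x⁻¹ ≠ 1 := by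
    by_contra h3
    push Not at h3
    refine hx (mem_center_iff.2 fun a => ?_)
    have := h3 a
    rw [mul_inv_eq_one, mul_assoc, inv_mul_eq_iff_eq_mul] at this
    exact this.symm
  obtain ⟨ζ, hζ⟩ := h1 _ (hx' g₀)
  have hζ' : ∀ v, ρ (g₀⁻¹ * x * g₀ * x⁻¹) v = ζ • v := fun v =>
    End.mem_eigenspace_iff.1 (hζ ▸ Submodule.mem_top)
  have hζ1 : ζ ≠ 1 := by
    rintro rfl
    exact hg₀ (hρ (by ext v; rw [hζ', map_one, one_smul, End.one_apply]))
  rcases subsingleton_or_nontrivial V with hV | hV
  · exact Subsingleton.elim _ _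
  have hζp : ζ ^ Nat.card G = 1 := by
    obtain ⟨v, hv⟩ := exists_ne (0 : V)
    have h3 : ρ (g₀⁻¹ * x * g₀ * x⁻¹) = ζ • (1 : End F V) := LinearMap.ext hζ'
    have h4 := LinearMap.congr_fun (pow_card_rep ρ (g₀⁻¹ * x * g₀ * x⁻¹)) v
    rw [h3, _root_.smul_pow, one_pow] at h4
    exact smul_left_injective F hv (by simpa using h4)
  have hord : p ≤ orderOf ζ := by
    obtain ⟨m, hm⟩ := IsPGroup.iff_card.1 hG
    obtain ⟨j, -, hj⟩ := (Nat.dvd_prime_pow hpp.out).1 (hm ▸ orderOf_dvd_of_pow_eq_one hζp)
    rw [hj]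
    refine Nat.le_self_pow (by rintro rfl; exact hζ1 (by simpa using hj)) p
  have step : ∀ ν, finrank F (End.eigenspace (ρ x) ν) ≤
      finrank F (End.eigenspace (ρ x) (ζ * ν)) := by
    intro ν
    have h3 : ∀ v ∈ End.eigenspace (ρ x) ν, ρ g₀ v ∈ End.eigenspace (ρ x) (ζ * ν) := by
      intro v hv
      rw [End.mem_eigenspace_iff] at hv ⊢
      rw [← End.mul_apply, ← map_mul, show x * g₀ = g₀ * (g₀⁻¹ * x * g₀ * x⁻¹) * x by group,
        map_mul, map_mul, End.mul_apply, End.mul_apply, hv, hζ', smul_smul, map_smul]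
    refine LinearMap.finrank_le_finrank_of_injective (f := (ρ g₀).restrict h3) fun a b hab => ?_
    have h4 := congrArg (ρ g₀⁻¹) (congrArg Subtype.val hab)
    simpa [← End.mul_apply, ← map_mul] using h4
  have dim : ∀ μ, finrank F (End.eigenspace (ρ x) μ) < p ^ k := by
    intro μ
    by_cases hμ : μ = 0
    · have : End.eigenspace (ρ x) μ = ⊥ := by
        refine eq_bot_iff.2 fun v hv => ?_
        have h4 := congrArg (ρ x⁻¹) (End.mem_eigenspace_iff.1 hv)
        simpa [← End.mul_apply, ← map_mul, hμ] using h4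
      rw [this, finrank_bot]
      exact pow_pos hpp.out.pos _
    have h3 : ∀ i : ℕ, finrank F (End.eigenspace (ρ x) μ) ≤
        finrank F (End.eigenspace (ρ x) (ζ ^ i * μ)) := by
      intro i
      induction i with
      | zero => rw [pow_zero, one_mul]
      | succ i ih => rw [pow_succ', mul_assoc]; exact ih.trans (step _)
    classical
    have h4 := sum_rootMultiplicity_le (LinearMap.charpoly (ρ x))
      ((Finset.range p).image fun i => ζ ^ i * μ)
    rw [Finset.sum_image fun i hi j hj e => pow_injOn_Iio_orderOf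
      (lt_of_lt_of_le (by simpa using hi) hord) (lt_of_lt_of_le (by simpa using hj) hord)
      (mul_right_cancel₀ hμ e), LinearMap.charpoly_natDegree, hn] at h4
    have h5 := Finset.card_nsmul_le_sum (Finset.range p) _ _ fun i _ =>
      (h3 i).trans (LinearMap.finrank_eigenspace_le (ρ x) _)
    rw [Finset.card_range, smul_eq_mul] at h5
    rw [pow_succ'] at h
    exact Nat.lt_of_mul_lt_mul_left ((h5.trans h4).trans_lt h)
  have hH : commutator G ≤ centralizer {x} := by
    rw [_root_.commutator, commutator_le]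
    intro a _ b _
    rw [mem_centralizer_singleton_iff]
    have e : ∀ a, x * a = a * (a⁻¹ * x * a * x⁻¹) * x := fun a => by group
    have c : ∀ a b, (a⁻¹ * x * a * x⁻¹) * b = b * (a⁻¹ * x * a * x⁻¹) := fun a b =>
      (mem_center_iff.1 (hx' a) b).symm
    have e1 : x * (a * b) = a * b * ((a⁻¹ * x * a * x⁻¹) * (b⁻¹ * x * b * x⁻¹)) * x := by
      rw [← mul_assoc x, e a, mul_assoc _ x, e b, ← mul_assoc, ← mul_assoc, mul_assoc a, c a b]
      group
    have e2 : x * (b * a) = b * a * ((a⁻¹ * x * a * x⁻¹) * (b⁻¹ * x * b * x⁻¹)) * x := by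
      rw [← mul_assoc x, e b, mul_assoc _ x, e a, ← mul_assoc, ← mul_assoc, mul_assoc b, c b a,
        ← c b (a⁻¹ * x * a * x⁻¹)]
      group
    generalize (a⁻¹ * x * a * x⁻¹) * (b⁻¹ * x * b * x⁻¹) = w at e1 e2
    rw [commutatorElement_def]
    calc a * b * a⁻¹ * b⁻¹ * x = a * b * w * x * ((b * a * w * x)⁻¹ * x) := by group
      _ = _ := by rw [← e1, ← e2]; group
  obtain ⟨y, hy, rfl⟩ := derived_succ_le_map hH k hg
  have h2 : ∀ c : centralizer ({x} : Set G), ρ x * ρ c = ρ c * ρ x := fun c => by
    rw [← map_mul, ← map_mul, mem_centralizer_singleton_iff.1 c.2]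
  refine eq_one_of_eigenspace (iSup_eigenspace hc (pow_card_rep ρ x)) fun μ v hv => ?_
  have := ihk _ _ (hG.to_subgroup (centralizer {x})) _ (Representation.subrepresentation
    (ρ.comp (centralizer {x}).subtype) _ (eig_le_comap _ h2 μ)) rfl (dim μ) y hy
  exact congrArg Subtype.val (LinearMap.congr_fun this ⟨v, hv⟩)

section Unip

variable {G V : Type*} [Group G] [AddCommGroup V] [Module F V]

/-- The ascending series of fixed points. -/
def fixSeries (ρ : Representation F G V) : ℕ → Submodule F V
  | 0 => ⊥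
  | j + 1 => ⨅ g, (fixSeries ρ j).comap (ρ g - 1)

theorem mem_fixSeries {ρ : Representation F G V} {j : ℕ} {v : V} :
    v ∈ fixSeries ρ (j + 1) ↔ ∀ g, ρ g v - v ∈ fixSeries ρ j := by
  simp [fixSeries]

theorem fixSeries_inv (ρ : Representation F G V) (j : ℕ) :
    ∀ g, fixSeries ρ j ≤ (fixSeries ρ j).comap (ρ g) := by
  induction j with
  | zero => intro g; exact bot_le
  | succ j ih =>
    intro g v hv
    refine mem_fixSeries.2 fun a => ?_
    have := ih g (mem_fixSeries.1 hv (g⁻¹ * a * g))
    rwa [Submodule.mem_comap, map_sub, ← End.mul_apply, ← map_mul, ← mul_assoc,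
      mul_inv_cancel_left, map_mul, End.mul_apply] at this

theorem fixSeries_mono (ρ : Representation F G V) : Monotone (fixSeries ρ) :=
  monotone_nat_of_le_succ fun j v hv => mem_fixSeries.2 fun g =>
    sub_mem (fixSeries_inv ρ j g hv) hv

theorem fixSeries_top [Fact p.Prime] [CharP F p] [Finite G] (hG : IsPGroup p G)
    [FiniteDimensional F V] (ρ : Representation F G V) : fixSeries ρ (finrank F V) = ⊤ := by
  have key : ∀ j, fixSeries ρ j = ⊤ ∨ j ≤ finrank F (fixSeries ρ j) := by
    intro j
    induction j with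
    | zero => exact Or.inr (Nat.zero_le _)
    | succ j ih =>
      by_cases h : fixSeries ρ j = ⊤
      · exact Or.inl (eq_top_iff.2 (h ▸ fixSeries_mono ρ (Nat.le_succ j)))
      have : Nontrivial (V ⧸ fixSeries ρ j) := Submodule.Quotient.nontrivial_iff.2 h
      obtain ⟨v, -, h0, hv⟩ := Perm.exists_fixed_vector hG (ρ.quotient _ (fixSeries_inv ρ j)) ⊤
        (fun _ _ _ => trivial) top_ne_bot
      obtain ⟨v, rfl⟩ := Submodule.Quotient.mk_surjective _ v
      refine Or.inr (lt_of_le_of_lt (ih.resolve_left h) (Submodule.finrank_lt_finrank_of_lt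
        (lt_of_le_of_ne (fixSeries_mono ρ (Nat.le_succ j)) fun e => h0 ?_)))
      rw [Submodule.Quotient.mk_eq_zero, e]
      exact mem_fixSeries.2 fun g => (Submodule.Quotient.eq _).1 (hv g)
  exact (key _).elim id fun h => Submodule.eq_top_of_finrank_eq
    (le_antisymm (Submodule.finrank_le _) h)

/-- The elements lowering the ascending series of fixed points by `a` steps. -/
def lowering (ρ : Representation F G V) (a : ℕ) : Subgroup G where
  carrier := {g | ∀ i, ∀ v ∈ fixSeries ρ i, ρ g v - v ∈ fixSeries ρ (i - a)}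
  one_mem' := fun i v _ => by simp
  mul_mem' := fun {g h} hg hh i v hv => by
    have := add_mem (hg i _ (fixSeries_inv ρ i h hv)) (hh i v hv)
    rwa [sub_add_sub_cancel, ← End.mul_apply, ← map_mul] at this
  inv_mem' := fun {g} hg i v hv => by
    have := neg_mem (hg i _ (fixSeries_inv ρ i g⁻¹ hv))
    rwa [← End.mul_apply, ← map_mul, mul_inv_cancel, map_one, End.one_apply, neg_sub] at this

theorem derived_le_lowering (ρ : Representation F G V) (k : ℕ) :
    derivedSeries G k ≤ lowering ρ (2 ^ k) := by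
  induction k with
  | zero =>
    intro g _ i v hv
    cases i with
    | zero => rw [(Submodule.mem_bot F).1 hv]; simp
    | succ i => exact mem_fixSeries.1 hv g
  | succ k ih =>
    rw [derivedSeries_succ, commutator_le]
    intro g hg h hh i v hv
    have hw := fixSeries_inv ρ i (g⁻¹ * h⁻¹) hv
    have h1 := sub_mem (ih hg _ _ (ih hh i _ hw)) (ih hh _ _ (ih hg i _ hw))
    rw [Nat.sub_sub, ← two_mul, ← pow_succ'] at h1
    convert h1 using 1
    simp only [map_sub, ← End.mul_apply, ← map_mul, commutatorElement_def, mul_assoc,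
      mul_inv_cancel_left, mul_inv_cancel, map_one, End.one_apply]
    abel

theorem derived_le_ker_charP [Fact p.Prime] [CharP F p] [Finite G] (hG : IsPGroup p G)
    [FiniteDimensional F V] (ρ : Representation F G V) {k : ℕ} (h : finrank F V ≤ 2 ^ k) :
    ∀ g ∈ derivedSeries G k, ρ g = 1 := by
  intro g hg
  ext v
  have := derived_le_lowering ρ k hg (finrank F V) v (fixSeries_top hG ρ ▸ Submodule.mem_top)
  rw [Nat.sub_eq_zero_of_le h] at this
  exact sub_eq_zero.1 ((Submodule.mem_bot F).1 this)

end Unip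

section Mat

variable {G : Type*} [Group G] {n : ℕ} {K : Type*} [Field K]

/-- A matrix representation read over a larger field. -/
noncomputable def matRep (f : F →+* K) (ρ : G →* GL (Fin n) F) :
    Representation K G (Fin n → K) :=
  (Matrix.toLinAlgEquiv' : Matrix (Fin n) (Fin n) K ≃ₐ[K] _).toMulEquiv.toMonoidHom.comp
    ((f.mapMatrix : _ →+* _).toMonoidHom.comp ((Units.coeHom _).comp ρ))

theorem matRep_apply (f : F →+* K) (ρ : G →* GL (Fin n) F) (g : G) :
    matRep f ρ g = Matrix.toLin' ((ρ g).1.map f) := rfl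

theorem matRep_injective (f : F →+* K) {ρ : G →* GL (Fin n) F} (h : Function.Injective ρ) :
    Function.Injective (matRep f ρ) := fun a b hab => by
  rw [matRep_apply, matRep_apply, Matrix.toLin'.injective.eq_iff] at hab
  exact h (Units.ext (Matrix.map_injective f.injective hab))

theorem derived_eq_bot_cross [Fintype F] {q : ℕ} (hF : Fintype.card F = q) [hp : Fact p.Prime]
    (hpq : ¬ p ∣ q) [Finite G] (hG : IsPGroup p G) {ρ : G →* GL (Fin n) F}
    (hρ : Function.Injective ρ) {k : ℕ} (hk : n / orderOf (q : ZMod p) < p ^ k) :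
    derivedSeries G k = ⊥ := by
  classical
  by_contra h0
  let L := AlgebraicClosure F
  let σ := matRep (algebraMap F L) ρ
  have hσ : Function.Injective σ := matRep_injective _ hρ
  have hpF : (p : F) ≠ 0 := fun h => hpq (hF ▸ (prime_dvd_char_iff_dvd_card p).1
    ((ringChar.spec F p).1 h |> fun h1 => by
      rw [(Nat.prime_dvd_prime_iff_eq (CharP.char_is_prime F (ringChar F)) hp.out).1 h1]))
  have hpL : (p : L) ≠ 0 := by
    rw [← map_natCast (algebraMap F L)]
    exact (_root_.map_ne_zero _).2 hpF
  have := derivedSeries_normal G k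
  obtain ⟨z, hz, hz1, hzp⟩ : ∃ z ∈ derivedSeries G k ⊓ center G, z ≠ 1 ∧ z ^ p = 1 := by
    have h1 : derivedSeries G k ⊓ center G ≠ ⊥ := by
      intro h1
      have : Nontrivial (derivedSeries G k) := (nontrivial_iff_ne_bot _).2 h0
      obtain ⟨⟨y, hy⟩, h2, h3⟩ := (hG.of_equiv ConjAct.toConjAct).exists_fixed_point_of_prime_dvd_card_of_fixed_point
        (derivedSeries G k) (by
          obtain ⟨m, hm, e⟩ := (hG.to_subgroup (derivedSeries G k)).nontrivial_iff_card.1 this
          rw [e]; exact dvd_pow_self _ hm.ne') (a := 1) (fun g => smul_one g)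
      refine h3 (Subtype.ext (mem_bot.1 (h1 ▸ ⟨hy, mem_center_iff.2 fun g => ?_⟩)).symm)
      have := congrArg Subtype.val (h2 (ConjAct.toConjAct g))
      exact mul_inv_eq_iff_eq_mul.1 this
    have : Nontrivial (derivedSeries G k ⊓ center G : Subgroup G) := (nontrivial_iff_ne_bot _).2 h1
    obtain ⟨m, hm, e⟩ := (hG.to_subgroup _).nontrivial_iff_card.1 this
    obtain ⟨z, hz⟩ := exists_prime_orderOf_dvd_card' (G := (derivedSeries G k ⊓ center G :
      Subgroup G)) p (by rw [e]; exact dvd_pow_self _ hm.ne')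
    rw [← orderOf_coe] at hz
    exact ⟨z, z.2, fun h => hp.out.ne_one (by rw [← hz, h, orderOf_one]),
      hz ▸ pow_orderOf_eq_one _⟩
  have hzp' : σ z ^ p = 1 := by rw [← map_pow, hzp, map_one]
  obtain ⟨ζ, hζ1, v, hv, hv0⟩ : ∃ ζ ≠ 1, ∃ v ∈ End.eigenspace (σ z) ζ, v ≠ 0 := by
    by_contra h1
    push Not at h1
    refine hz1 (hσ ((eq_one_of_eigenspace (iSup_eigenspace hpL hzp') fun μ v hv => ?_).trans
      (map_one σ).symm))
    by_cases hμ : μ = 1
    · simpa [hμ] using hv
    · rw [h1 μ hμ v hv, map_zero]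
  have hζ : ζ ^ p = 1 := by
    have h1 := End.HasEigenvector.pow_apply ⟨hv, hv0⟩ p
    rw [hzp'] at h1
    exact (smul_left_injective L hv0 (by simpa using h1)).symm
  have hord : orderOf ζ = p := orderOf_eq_prime hζ hζ1
  have h2 : ∀ g, σ z * σ g = σ g * σ z := fun g => by
    rw [← map_mul, ← map_mul, mem_center_iff.1 hz.2]
  have hq0 : (q : ZMod p) ≠ 0 := by rwa [Ne, ZMod.natCast_eq_zero_iff]
  have he : 0 < orderOf (q : ZMod p) := (isOfFinOrder_iff_pow_eq_one.2 ⟨p - 1,
    Nat.sub_pos_of_lt hp.out.one_lt, ZMod.pow_card_sub_one_eq_one hq0⟩).orderOf_pos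
  have hch : LinearMap.charpoly (σ z) = (ρ z).1.charpoly.map (algebraMap F L) := by
    rw [matRep_apply, Matrix.charpoly_toLin', Matrix.charpoly_map]
  have hm : ∀ i : ℕ, (LinearMap.charpoly (σ z)).rootMultiplicity (ζ ^ q ^ i) =
      (LinearMap.charpoly (σ z)).rootMultiplicity ζ := by
    intro i
    induction i with
    | zero => simp
    | succ i ih =>
      rw [← ih, eq_rootMultiplicity_map (f := (FiniteField.frobeniusAlgHom F L : L →+* L))
        (RingHom.injective _) (ζ ^ q ^ i), hch, Polynomial.map_map, AlgHom.comp_algebraMap,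
        pow_succ, pow_mul, ← hF]
      rfl
  have h4 := sum_rootMultiplicity_le (LinearMap.charpoly (σ z))
    ((Finset.range (orderOf (q : ZMod p))).image fun i => ζ ^ q ^ i)
  rw [Finset.sum_image fun i hi j hj e => pow_injOn_Iio_orderOf (x := (q : ZMod p))
    (by simpa using hi) (by simpa using hj) (by
      have hfin : IsOfFinOrder ζ := orderOf_pos_iff.1 (hord ▸ hp.out.pos)
      have := hfin.pow_inj_mod.1 e
      rw [hord] at this
      simpa using (ZMod.natCast_eq_natCast_iff' _ _ p).2 this),
    LinearMap.charpoly_natDegree, finrank_fin_fun] at h4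
  simp only [hm, Finset.sum_const, Finset.card_range, smul_eq_mul] at h4
  have h5 : finrank L (End.eigenspace (σ z) ζ) < p ^ k :=
    lt_of_le_of_lt ((Nat.le_div_iff_mul_le he).2 (le_trans (Nat.mul_le_mul_right _
      (LinearMap.finrank_eigenspace_le (σ z) ζ)) (by rwa [mul_comm]))) hk
  have h6 := derived_le_ker hpL k _ G hG _ (σ.subrepresentation _ (eig_le_comap σ h2 ζ)) rfl h5
    z hz.1
  have h7 : σ z v = v := congrArg Subtype.val (LinearMap.congr_fun h6 ⟨v, hv⟩)
  rw [End.mem_eigenspace_iff.1 hv] at h7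
  exact hζ1 (smul_left_injective L hv0 (by simpa using h7))

theorem exists_GL_of_rep {V : Type*} [AddCommGroup V] [Module F V] [FiniteDimensional F V]
    (σ : Representation F G V) (hσ : Function.Injective σ) (h : finrank F V ≤ n) :
    ∃ ρ : G →* GL (Fin n) F, Function.Injective ρ := by
  let τ : Representation F G (V × (Fin (n - finrank F V) → F)) :=
    { toFun := fun g => (σ g).prodMap LinearMap.id
      map_one' := by ext <;> simp
      map_mul' := fun a b => by ext <;> simp }
  have hτ : Function.Injective τ := fun a b hab => hσ (LinearMap.ext fun v =>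
    congrArg Prod.fst (LinearMap.congr_fun hab (v, 0)))
  let b := finBasisOfFinrankEq F (V × (Fin (n - finrank F V) → F)) (n := n) (by simp; omega)
  exact ⟨MonoidHom.toHomUnits ((LinearMap.toMatrixAlgEquiv b).toMulEquiv.toMonoidHom.comp τ),
    fun x y hxy => hτ ((LinearMap.toMatrixAlgEquiv b).injective (congrArg Units.val hxy))⟩

end Mat

theorem exists_wreath [hp : Fact p.Prime] {F : Type u} [Field F] {e : ℕ} {g : GL (Fin e) F}
    (hg : orderOf g = p) (j : ℕ) :
    ∃ (W : Type u) (_ : Group W) (_ : Finite W) (V : Type u) (_ : AddCommGroup V) (_ : Module F V)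
      (_ : FiniteDimensional F V) (σ : Representation F W V), IsPGroup p W ∧
      Function.Injective σ ∧ finrank F V = e * p ^ j ∧ derivedSeries W j ≠ ⊥ := by
  classical
  induction j with
  | zero =>
    have h1 : Nat.card (zpowers g) = p := by rw [Nat.card_zpowers, hg]
    refine ⟨zpowers g, inferInstance, Nat.finite_of_card_ne_zero (h1 ▸ hp.out.ne_zero),
      Fin e → F, inferInstance, inferInstance, inferInstance,
      matRep (RingHom.id F) (zpowers g).subtype, IsPGroup.of_card (n := 1) (by rw [h1, pow_one]),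
      matRep_injective _ (subtype_injective _), by simp, fun h => ?_⟩
    have h2 := congrArg (fun K : Subgroup (zpowers g) => Nat.card K) h
    simp only [derivedSeries_zero, card_top, card_bot, h1] at h2
    exact hp.out.ne_one h2
  | succ j ih =>
    obtain ⟨W, _, _, V, _, _, _, σ, hW, hσ, hd, hj⟩ := ih
    let Q := Multiplicative (ZMod p)
    have hQ : Nat.card Q = p := by simp [Q]
    let τ : Representation F (W ≀ᵣ Q) (Q → V) :=
      { toFun := fun a => LinearMap.pi fun i => σ (a.left i) ∘ₗ LinearMap.proj (a.right⁻¹ * i)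
        map_one' := by ext; simp
        map_mul' := fun a b => LinearMap.ext fun v => funext fun i => by
          simp [mul_assoc, mul_inv_rev a.right] }
    have hτ : ∀ a v i, τ a v i = σ (a.left i) (v (a.right⁻¹ * i)) := fun _ _ _ => rfl
    have hnt : Nontrivial W := by
      by_contra h
      rw [not_nontrivial_iff_subsingleton] at h
      exact hj (Subsingleton.elim _ _)
    have hV : Nontrivial V := by
      by_contra h
      rw [not_nontrivial_iff_subsingleton] at h
      obtain ⟨a, b, hab⟩ := exists_pair_ne W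
      exact hab (hσ (Subsingleton.elim _ _))
    obtain ⟨m, hm⟩ := IsPGroup.iff_card.1 hW
    refine ⟨W ≀ᵣ Q, inferInstance, inferInstance, Q → V, inferInstance, inferInstance,
      inferInstance, τ, IsPGroup.of_card (n := m * p + 1) ?_, ?_, ?_, fun h => hj ?_⟩
    · rw [RegularWreathProduct.card, hm, hQ, pow_succ, pow_mul]
    · rw [injective_iff_map_eq_one]
      intro a ha
      obtain ⟨v, hv⟩ := exists_ne (0 : V)
      have h1 : a.right = 1 := by
        by_contra h1
        have h2 := hτ a (Pi.single 1 v) 1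
        rw [ha, Pi.single_eq_of_ne (by simpa using h1), map_zero] at h2
        exact hv (by simpa using h2)
      refine RegularWreathProduct.ext (funext fun i => hσ (LinearMap.ext fun w => ?_)) h1
      simpa [ha] using (hτ a (fun _ => w) i).symm
    · rw [Module.finrank_pi_fintype, Finset.sum_const, Finset.card_univ, ← Nat.card_eq_fintype_card,
        hQ, hd, smul_eq_mul]
      ring
    · let K := (RegularWreathProduct.rightHom : W ≀ᵣ Q →* Q).ker ⊓ commutator (W ≀ᵣ Q)
      let π : K →* W :=
        { toFun := fun a => a.1.left 1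
          map_one' := rfl
          map_mul' := fun a b => by
            have : a.1.right = 1 := a.2.1
            simp [this] }
      have hπ : Function.Surjective π := by
        intro w
        obtain ⟨s, hs⟩ := exists_ne (1 : Q)
        refine ⟨⟨⁅(⟨Pi.mulSingle 1 w, 1⟩ : W ≀ᵣ Q), RegularWreathProduct.inl s⁆, ?_,
          commutator_mem_commutator (mem_top _) (mem_top _)⟩, ?_⟩
        · simp [commutatorElement_def]
        · simp [π, commutatorElement_def, hs]
      have h1 := map_derived_le_succ (H := K) inf_le_right j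
      rw [h, le_bot_iff, map_eq_bot_iff_of_injective _ (subtype_injective _)] at h1
      rw [← map_derivedSeries_eq hπ, h1, Subgroup.map_bot]

end Cfsg.Agent.LinP
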